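import Cfsg.Agent.S1062
import Cfsg.Agent.S1063
import Cfsg.Agent.S1064
import Cfsg.Agent.S1065
import Cfsg.Agent.S1066

/-!
# The `2`-parts of the orders (helper102)
-/

set_option autoImplicit false

namespace Cfsg.Agent.H102.RV

open Cfsg Cfsg.Lie

variable {q : ℕ}

theorem d2 (h : Odd q) : 2 ^ 3 ∣ q ^ 2 - 1 := by
  obtain ⟨k, rfl⟩ := h
  have h1 : (2 * k + 1) ^ 2 - 1 = 4 * (k * (k + 1)) := by
    have : (2 * k + 1) ^ 2 = 4 * (k * (k + 1)) + 1 := by ring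
    omega
  rw [h1, show 2 ^ 3 = 4 * 2 by norm_num]
  exact Nat.mul_dvd_mul_left 4 (even_iff_two_dvd.mp (Nat.even_mul_succ_self k))

theorem dmul {a b : ℕ} (h : a ∣ b) : q ^ a - 1 ∣ q ^ b - 1 := by
  obtain ⟨c, rfl⟩ := h
  rw [pow_mul]
  simpa using Nat.sub_dvd_pow_sub_pow (q ^ a) 1 c

theorem d2n (h : Odd q) {n : ℕ} (hn : 2 ∣ n) : 2 ^ 3 ∣ q ^ n - 1 := (d2 h).trans (dmul hn)

theorem dbl {a : ℕ} (h : Odd q) {k : ℕ} (hk : 2 ^ k ∣ q ^ a - 1) : 2 ^ (k + 1) ∣ q ^ (2 * a) - 1 := by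
  have h1 : q ^ (2 * a) - 1 = (q ^ a - 1) * (q ^ a + 1) := by
    have := Nat.sq_sub_sq (q ^ a) 1
    rw [one_pow, ← pow_mul, mul_comm a 2] at this
    rw [this, mul_comm]
  rw [h1, pow_succ]
  exact Nat.mul_dvd_mul hk (even_iff_two_dvd.mp (h.pow.add_one))

theorem d4n (h : Odd q) {n : ℕ} (hn : 4 ∣ n) : 2 ^ 4 ∣ q ^ n - 1 := (dbl h (d2 h)).trans (dmul hn)

theorem d8n (h : Odd q) {n : ℕ} (hn : 8 ∣ n) : 2 ^ 5 ∣ q ^ n - 1 :=
  (dbl h (dbl h (d2 h))).trans (dmul hn)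

theorem d1 (h : Odd q) {n : ℕ} : 2 ^ 1 ∣ q ^ n - 1 := by
  rw [pow_one]
  exact even_iff_two_dvd.mp (Nat.Odd.sub_odd h.pow odd_one)

theorem d1' (h : Odd q) {n : ℕ} : 2 ^ 1 ∣ q ^ n + 1 := by
  rw [pow_one]
  exact even_iff_two_dvd.mp (h.pow.add_odd odd_one)

theorem mul_pow_dvd {a b i j : ℕ} (h : 2 ^ i ∣ a) (h' : 2 ^ j ∣ b) : 2 ^ (i + j) ∣ a * b := by
  rw [pow_add]; exact Nat.mul_dvd_mul h h'

section

variable {F : Type*} [Field F] [Fintype F]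

theorem two_pow_F4 (h : Odd (Fintype.card F)) : 2 ^ 15 ∣ Nat.card (chevF4.group F) := by
  rw [Cfsg.Agent.S1062.result rfl]
  have h0 : 2 ^ 0 ∣ Fintype.card F ^ 24 := by simp
  exact mul_pow_dvd (mul_pow_dvd (mul_pow_dvd (mul_pow_dvd h0 (d2 h)) (d2n h (by norm_num))) (d8n h (by norm_num)))
    (d4n h (by norm_num))

theorem two_pow_E8 (h : Odd (Fintype.card F)) : 2 ^ 30 ∣ Nat.card (chevE8.group F) := by
  rw [Cfsg.Agent.S1065.result rfl]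
  have h0 : 2 ^ 0 ∣ Fintype.card F ^ 120 := by simp
  exact mul_pow_dvd (mul_pow_dvd (mul_pow_dvd (mul_pow_dvd (mul_pow_dvd (mul_pow_dvd (mul_pow_dvd (mul_pow_dvd h0 (d2 h))
    (d8n h (by norm_num))) (d4n h (by norm_num))) (d2n h (by norm_num))) (d2n h (by norm_num))) (d4n h (by norm_num)))
    (d8n h (by norm_num))) (d2n h (by norm_num))

theorem two_pow_E7 (h : Odd (Fintype.card F)) : 2 ^ 23 ∣ Nat.card (chevE7.group F) := by
  have h1 := Cfsg.Agent.S1064.result (F := F) rfl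
  have h0 : 2 ^ 0 ∣ Fintype.card F ^ 63 := by simp
  have h2 : 2 ^ 24 ∣ Nat.gcd 2 (Fintype.card F - 1) * Nat.card (chevE7.group F) := by
    rw [h1]
    exact mul_pow_dvd (mul_pow_dvd (mul_pow_dvd (mul_pow_dvd (mul_pow_dvd (mul_pow_dvd (mul_pow_dvd h0 (d2 h))
      (d2n h (by norm_num))) (d8n h (by norm_num))) (d2n h (by norm_num))) (d4n h (by norm_num))) (d2n h (by norm_num)))
      (d2n h (by norm_num))
  have h3 : Nat.gcd 2 (Fintype.card F - 1) = 2 := by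
    apply Nat.gcd_eq_left
    exact even_iff_two_dvd.mp (Nat.Odd.sub_odd h odd_one)
  rw [h3, show (2 : ℕ) ^ 24 = 2 * 2 ^ 23 by norm_num] at h2
  exact Nat.dvd_of_mul_dvd_mul_left (by norm_num) h2

theorem two_pow_E6 (h : Odd (Fintype.card F)) : 2 ^ 17 ∣ Nat.card (chevE6.group F) := by
  have h1 := Cfsg.Agent.S1063.result (F := F) rfl
  have h0 : 2 ^ 0 ∣ Fintype.card F ^ 36 := by simp
  have h2 : 2 ^ 17 ∣ Nat.gcd 3 (Fintype.card F - 1) * Nat.card (chevE6.group F) := by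
    rw [h1]
    exact mul_pow_dvd (mul_pow_dvd (mul_pow_dvd (mul_pow_dvd (mul_pow_dvd (mul_pow_dvd h0 (d2 h))
      (d1 h)) (d2n h (by norm_num))) (d8n h (by norm_num))) (d1 h)) (d4n h (by norm_num))
  refine (Nat.Coprime.dvd_of_dvd_mul_left ?_ h2)
  apply Nat.Coprime.pow_left
  exact Nat.Coprime.coprime_dvd_right (Nat.gcd_dvd_left 3 _) (by norm_num)

theorem two_pow_tw (hq : IsPrimePow q) (ho : Odd q) (hK : Fintype.card F = q ^ 2) : 2 ^ 17 ∣ Nat.card (twistedE6 F q) := by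
  have h1 := Cfsg.Agent.S1066.result (K := F) hq hK
  have h0 : 2 ^ 0 ∣ q ^ 36 := by simp
  have h2 : 2 ^ 17 ∣ Nat.gcd 3 (q + 1) * Nat.card (twistedE6 F q) := by
    rw [h1]
    exact mul_pow_dvd (mul_pow_dvd (mul_pow_dvd (mul_pow_dvd (mul_pow_dvd (mul_pow_dvd h0 (d2 ho))
      (d1' ho)) (d2n ho (by norm_num))) (d8n ho (by norm_num))) (d1' ho)) (d4n ho (by norm_num))
  refine (Nat.Coprime.dvd_of_dvd_mul_left ?_ h2)
  apply Nat.Coprime.pow_left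
  exact Nat.Coprime.coprime_dvd_right (Nat.gcd_dvd_left 3 _) (by norm_num)

end

end Cfsg.Agent.H102.RV
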