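import Cfsg.Agent.H102.RV.Ord

/-!
# The adjoint modules (helper102)
-/

set_option autoImplicit false

namespace Cfsg.Agent.H102.RV

open Cfsg Cfsg.Lie Matrix

theorem exists_rho {ι : Type*} [Fintype ι] [DecidableEq ι] {d : ℕ} (hd : Fintype.card ι = d) (F : Type*) [Field F] :
    ∃ f : GL ι F →* GL (Fin d) F, Function.Injective f := by
  let e : ι ≃ Fin d := Fintype.equivFinOfCardEq hd
  refine ⟨(Units.mapEquiv (Matrix.reindexAlgEquiv F F e).toMulEquiv).toMonoidHom, ?_⟩
  exact (Units.mapEquiv (Matrix.reindexAlgEquiv F F e).toMulEquiv).injective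

theorem card_idx_F4 : Fintype.card chevF4.Idx = 52 := by decide +kernel
theorem card_idx_E6 : Fintype.card chevE6.Idx = 78 := by decide +kernel
theorem card_idx_E7 : Fintype.card chevE7.Idx = 133 := by decide +kernel
theorem card_idx_E8 : Fintype.card chevE8.Idx = 248 := by decide +kernel

/-- a representation of `S` from an embedding into a linear group -/
theorem exists_rho_of {ι : Type*} [Fintype ι] [DecidableEq ι] {d : ℕ} (hd : Fintype.card ι = d) {F : Type*} [Field F]
    {X : Subgroup (GL ι F)} {S : Type*} [Group S] (hS : Nonempty (S ≃* X)) :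
    ∃ f : S →* GL (Fin d) F, Function.Injective f := by
  obtain ⟨e⟩ := hS
  obtain ⟨f, hf⟩ := exists_rho hd F
  exact ⟨f.comp (X.subtype.comp e.toMonoidHom), hf.comp (X.subtype_injective.comp e.injective)⟩

theorem odd_card {F : Type*} [Field F] [Fintype F] {p : ℕ} [CharP F p] (hp2 : p ≠ 2) : Odd (Fintype.card F) := by
  refine Nat.odd_iff.2 (FiniteField.odd_card_of_char_ne_two ?_)
  rw [ringChar.eq F p]; exact hp2

end Cfsg.Agent.H102.RV
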